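import Cfsg.Agent.Lib.Core.PCore
import Cfsg.Agent.Lib.Transfer.SylowIn

/-!
Split BN-pairs of rank one with cyclic torus: a `p`-element centralizing the normalizer of a
Sylow `p`-subgroup of an extension by a `p`-group is trivial.
-/

set_option autoImplicit false

namespace Cfsg.Lib.IPM

open Subgroup

variable {X Y : Type*} [Group X] [Group Y] {p : ℕ}

/-- Rank one data. -/
structure RK (p : ℕ) (B U : Subgroup X) (w h t : X) : Prop where
  pU : IsPGroup p U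
  UB : U ≤ B
  BN : ∀ b ∈ B, ∀ u ∈ U, b * u * b⁻¹ ∈ U
  canon : ∀ g, g ∉ B → ∃ v ∈ U, ∃ c ∈ B, g = v * w * c
  reg : ∀ u ∈ U, w⁻¹ * u * w ∈ B → u = 1
  tB : t ∈ B
  tp : (orderOf t).Coprime p
  cyc : ∀ b ∈ B, ∃ k : ℕ, ∃ u ∈ U, b = u * t ^ k
  hB : h ∈ B
  hw : w⁻¹ * h * w ∈ B
  hp : h ^ (p - 1) = 1
  fpf : ∀ u ∈ U, h * u = u * h → u = 1
  gen : normalClosure (U : Set X) = ⊤
  ne : ∃ u ∈ U, u ≠ 1

namespace RK

variable {B U : Subgroup X} {w h t : X} (r : RK p B U w h t)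
include r

theorem BN' {b u : X} (hb : b ∈ B) (hu : u ∈ U) : b⁻¹ * u * b ∈ U := by
  simpa using r.BN _ (inv_mem hb) _ hu

theorem mem_B {g : X} (hg : ∀ u ∈ U, g⁻¹ * u * g ∈ U) : g ∈ B := by
  by_contra hB
  obtain ⟨v, hv, c, hc, rfl⟩ := r.canon g hB
  obtain ⟨u, hu, h1⟩ := r.ne
  have h2 := r.BN _ hc _ (hg _ (r.BN _ (r.UB hv) _ hu))
  refine h1 (r.reg u hu (r.UB ?_))
  convert h2 using 1
  group

theorem wB : w ∉ B := fun hw => by
  obtain ⟨u, hu, h1⟩ := r.ne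
  exact h1 (r.reg u hu (r.UB (r.BN' hw hu)))

theorem map (π : X →* Y) (hs : Function.Surjective π) (hk : π.ker ≤ B) :
    RK p (B.map π) (U.map π) (π w) (π h) (π t) := by
  have hB : ∀ x, π x ∈ B.map π → x ∈ B := fun x hx => by
    rwa [← mem_comap, comap_map_eq_self hk] at hx
  have hU : ∀ u ∈ U, π u = 1 → u = 1 := fun u hu h1 =>
    r.reg u hu (hk (by simp [MonoidHom.mem_ker, h1]))
  refine ⟨r.pU.map π, map_mono r.UB, ?_, ?_, ?_, mem_map_of_mem π r.tB,
    r.tp.coprime_dvd_left (orderOf_map_dvd π t), ?_, mem_map_of_mem π r.hB, ?_, ?_, ?_, ?_, ?_⟩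
  · rintro _ ⟨b, hb, rfl⟩ _ ⟨u, hu, rfl⟩
    exact ⟨_, r.BN b hb u hu, by simp⟩
  · intro g hg
    obtain ⟨g, rfl⟩ := hs g
    obtain ⟨v, hv, c, hc, rfl⟩ := r.canon g fun h => hg (mem_map_of_mem π h)
    exact ⟨_, mem_map_of_mem π hv, _, mem_map_of_mem π hc, by simp⟩
  · rintro _ ⟨u, hu, rfl⟩ h1
    rw [r.reg u hu (hB _ (by simpa using h1)), map_one]
  · rintro _ ⟨b, hb, rfl⟩
    obtain ⟨k, u, hu, rfl⟩ := r.cyc b hb
    exact ⟨k, _, mem_map_of_mem π hu, by simp⟩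
  · simpa using mem_map_of_mem π r.hw
  · rw [← map_pow, r.hp, map_one]
  · rintro _ ⟨u, hu, rfl⟩ h1
    have h2 := hU _ (mul_mem (r.BN _ r.hB _ hu) (inv_mem hu)) (by simp [h1])
    rw [r.fpf u hu (by rw [← mul_inv_eq_one, ← h2]; group), map_one]
  · rw [coe_map, ← map_normalClosure _ _ hs, r.gen, ← MonoidHom.range_eq_map,
      MonoidHom.range_eq_top.2 hs]
  · obtain ⟨u, hu, h1⟩ := r.ne
    exact ⟨_, mem_map_of_mem π hu, fun h2 => h1 (hU u hu h2)⟩

theorem aut_B (α : MulAut X) (hα : ∀ u, α u ∈ U ↔ u ∈ U) {b : X} (hb : b ∈ B) : α b ∈ B :=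
  r.mem_B fun u hu => by
    obtain ⟨u, rfl⟩ := α.surjective u
    rw [← map_inv, ← map_mul, ← map_mul, hα]
    exact r.BN' hb ((hα u).1 hu)

theorem fix (α : MulAut X) (hU : ∀ u ∈ U, α u = u) (hh : α h = h) (x : X) : α x = x := by
  have hα : ∀ u, α u ∈ U ↔ u ∈ U := fun u =>
    ⟨fun h1 => by rwa [α.injective (hU _ h1)] at h1, fun h1 => (hU u h1).symm ▸ h1⟩
  have h1 : α w ∉ B := fun h1 => r.wB (by
    simpa using r.aut_B α⁻¹ (fun u => by rw [← hα]; simp) h1)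
  obtain ⟨v, hv, c, hc, e⟩ := r.canon _ h1
  have h2 := r.aut_B α hα r.hw
  rw [map_mul, map_mul, map_inv, hh, e] at h2
  have h3 : v⁻¹ * (h * v * h⁻¹) = 1 := r.reg _ (mul_mem (inv_mem hv) (r.BN _ r.hB _ hv)) (by
    convert mul_mem (mul_mem (mul_mem hc h2) (inv_mem hc)) (inv_mem r.hw) using 1
    group)
  obtain rfl : v = 1 := r.fpf v hv (by rw [inv_mul_eq_one] at h3; rw [← mul_inv_eq_iff_eq_mul, ← h3])
  have h4 : ∀ g, g⁻¹ * α g ∈ B := fun g => by
    by_cases hg : g ∈ B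
    · exact mul_mem (inv_mem hg) (r.aut_B α hα hg)
    obtain ⟨v, hv, c', hc', rfl⟩ := r.canon g hg
    rw [map_mul, map_mul, hU v hv, e]
    convert mul_mem (mul_mem (inv_mem hc') hc) (r.aut_B α hα hc') using 1
    group
  have h5 : ∀ x g, g⁻¹ * (x⁻¹ * α x) * g ∈ B := fun x g => by
    convert mul_mem (h4 (x * g)) (inv_mem (h4 g)) using 1
    rw [map_mul]
    group
  have h6 : normalClosure (U : Set X) ≤ (α : X →* X).eqLocus (MonoidHom.id X) := by
    rw [normalClosure, closure_le]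
    intro x hx
    obtain ⟨u, hu, hc⟩ := Group.mem_conjugatesOfSet_iff.1 hx
    obtain ⟨g, rfl⟩ := isConj_iff.1 hc
    have h7 := r.reg _ (mul_mem (inv_mem hu) (r.BN _ (h4 g) _ hu)) (by
      convert h5 (g * u * g⁻¹) (g * w) using 1
      rw [map_mul, map_mul, map_inv, hU u hu]
      group)
    show α (g * u * g⁻¹) = g * u * g⁻¹
    rw [inv_mul_eq_one] at h7
    rw [map_mul, map_mul, map_inv, hU u hu]
    conv_rhs => rw [h7]
    group
  exact h6 (r.gen ▸ mem_top x)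

variable [Finite X] [hp : Fact p.Prime]

theorem mod (α : MulAut X) (hα : ∀ u, α u ∈ U ↔ u ∈ U) {k : ℕ} (hk : α ^ p ^ k = 1) :
    h⁻¹ * α h ∈ U := by
  classical
  have : (U.subgroupOf B).Normal := ⟨fun u hu b => r.BN _ b.2 _ hu⟩
  let f : B →* B := ((α : X →* X).comp B.subtype).codRestrict B fun b => r.aut_B α hα b.2
  let g := QuotientGroup.map (U.subgroupOf B) (U.subgroupOf B) f fun u hu => (hα _).2 hu
  have hc : IsCyclic (B ⧸ U.subgroupOf B) := ⟨⟨QuotientGroup.mk ⟨t, r.tB⟩, fun x => by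
    obtain ⟨b, rfl⟩ := QuotientGroup.mk_surjective x
    obtain ⟨n, u, hu, e⟩ := r.cyc b b.2
    refine ⟨n, ?_⟩
    show (QuotientGroup.mk ⟨t, r.tB⟩ : B ⧸ U.subgroupOf B) ^ (n : ℤ) = _
    rw [zpow_natCast, ← QuotientGroup.mk_pow, QuotientGroup.eq, mem_subgroupOf]
    simpa [e, mul_assoc] using r.BN' (pow_mem r.tB n) hu⟩⟩
  let A := {x : B ⧸ U.subgroupOf B // x ^ (p - 1) = 1}
  let F : A → A := fun x => ⟨g x.1, by rw [← map_pow, x.2, map_one]⟩
  let a : A := ⟨QuotientGroup.mk ⟨h, r.hB⟩, by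
    rw [← QuotientGroup.mk_pow, show (⟨h, r.hB⟩ : B) ^ (p - 1) = 1 from Subtype.ext r.hp]; rfl⟩
  have it : ∀ n, ∃ b : B, (b : X) = (α ^ n) h ∧ (F^[n] a).1 = QuotientGroup.mk b := fun n => by
    induction n with
    | zero => exact ⟨⟨h, r.hB⟩, rfl, rfl⟩
    | succ n ih =>
      obtain ⟨b, e1, e2⟩ := ih
      refine ⟨f b, by rw [pow_succ', MulAut.mul_apply, ← e1]; rfl, ?_⟩
      rw [Function.iterate_succ_apply']
      show g _ = _
      rw [e2]; rfl
  have per : Function.IsPeriodicPt F (p ^ k) a := by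
    obtain ⟨b, e1, e2⟩ := it (p ^ k)
    refine Subtype.ext (e2.trans ?_)
    rw [show b = ⟨h, r.hB⟩ from Subtype.ext (by rw [e1, hk]; rfl)]
  have := Fintype.ofFinite (B ⧸ U.subgroupOf B)
  have p2 := hp.out.two_le
  have cA : Fintype.card A ≤ p - 1 := by
    rw [Fintype.card_subtype]
    exact IsCyclic.card_pow_eq_one_le (by omega)
  obtain ⟨j, -, hj⟩ := (Nat.dvd_prime_pow hp.out).1 per.minimalPeriod_dvd
  have h1 : Function.minimalPeriod F a = 1 := by
    rcases j with _ | j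
    · exact hj
    have h2 := Function.minimalPeriod_le_card (f := F) (x := a)
    have h3 : p ≤ p ^ (j + 1) := Nat.le_self_pow (by omega) p
    omega
  have h2 := congrArg Subtype.val (Function.minimalPeriod_eq_one_iff_isFixedPt.1 h1).eq
  exact (QuotientGroup.eq.1 (show (QuotientGroup.mk ⟨h, r.hB⟩ : B ⧸ U.subgroupOf B) =
    QuotientGroup.mk (f ⟨h, r.hB⟩) from h2.symm) :)

theorem syl {W : Subgroup X} (hW : IsPGroup p W) (le : U ≤ W) : W = U := by
  have := hW.isNilpotent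
  by_contra hne
  have h1 : U.subgroupOf W < ⊤ :=
    lt_top_iff_ne_top.2 fun h1 => hne (le_antisymm (subgroupOf_eq_top.1 h1) le)
  obtain ⟨x, hx, hxU⟩ := SetLike.exists_of_lt (Group.normalizerCondition_of_isNilpotent _ h1)
  have hB : (x : X) ∈ B := r.mem_B fun u hu => by
    simpa [mem_subgroupOf] using (mem_normalizer_iff.1 (inv_mem hx) ⟨u, le hu⟩).1 hu
  obtain ⟨n, u, hu, e⟩ := r.cyc _ hB
  have h2 : t ^ n ∈ W := by
    rw [← inv_mul_eq_iff_eq_mul] at e
    exact e ▸ mul_mem (inv_mem (le hu)) x.2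
  obtain ⟨j, hj⟩ := hW ⟨_, h2⟩
  have h3 : orderOf (t ^ n) = 1 :=
    ((r.tp.coprime_dvd_left (orderOf_pow_dvd n)).pow_right j).eq_one_of_dvd
      (orderOf_dvd_of_pow_eq_one (congrArg Subtype.val hj))
  rw [orderOf_eq_one_iff] at h3
  exact hxU (by rw [mem_subgroupOf, e, h3, mul_one]; exact hu)

end RK

/-- `X` carries rank one data. -/
def HasRK (p : ℕ) (X : Type*) [Group X] : Prop :=
  ∃ (B U : Subgroup X) (w h t : X), RK p B U w h t

theorem HasRK.equiv (r : HasRK p X) (e : Y ≃* X) : HasRK p Y := by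
  obtain ⟨B, U, w, h, t, r⟩ := r
  exact ⟨_, _, _, _, _, r.map (e.symm : X →* Y) e.symm.surjective (by
    rw [(MonoidHom.ker_eq_bot_iff _).2 e.symm.injective]; exact bot_le)⟩

theorem HasRK.quot (r : HasRK p X) : HasRK p (X ⧸ center X) := by
  obtain ⟨B, U, w, h, t, r⟩ := r
  refine ⟨_, _, _, _, _, r.map (QuotientGroup.mk' _) (QuotientGroup.mk'_surjective _) ?_⟩
  rw [QuotientGroup.ker_mk']
  exact fun z hz => r.mem_B fun u hu => by
    rwa [mul_assoc, mem_center_iff.1 hz, inv_mul_cancel_left]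

variable [Finite X] [hp : Fact p.Prime]

theorem HasRK.syl (r : HasRK p X) (W : Sylow p X) :
    ∃ (B : Subgroup X) (w h t : X), RK p B W w h t := by
  obtain ⟨B, U, w, h, t, r⟩ := r
  obtain ⟨V, hV⟩ := r.pU.exists_le_sylow
  obtain rfl := r.syl V.isPGroup' hV
  obtain ⟨g, rfl⟩ := MulAction.exists_smul_eq X V W
  exact ⟨_, _, _, _, r.map (MulAut.conj g : X →* X) (MulAut.conj g).surjective (by
    rw [(MonoidHom.ker_eq_bot_iff _).2 (MulAut.conj g).injective]; exact bot_le)⟩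

theorem eq_one {N : Subgroup X} [N.Normal] (r : HasRK p N) (S : Sylow p X)
    (hN : N ⊔ (S : Subgroup X) = ⊤) (hO : pCore p X = ⊥) {z : X} (hz : z ∈ (S : Subgroup X))
    (hc : ∀ g ∈ normalizer ((S : Subgroup X) : Set X), g * z = z * g) : z = 1 := by
  obtain ⟨W, hW⟩ := Transfer.exists_sylow_of_not_dvd_relIndex S.isPGroup'
    (Transfer.sylow_not_dvd_relIndex_normal S N)
  obtain ⟨B, w, h, t, r⟩ := r.syl W
  have mem : ∀ u : N, u ∈ (W : Subgroup N) ↔ (u : X) ∈ (S : Subgroup X) := fun u => by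
    rw [hW, mem_subgroupOf]
  have hh : (h : X) ∈ normalizer ((S : Subgroup X) : Set X) := by
    refine inv_mem_iff.1 (mem_normalizer_fintype fun s hs => ?_)
    obtain ⟨k, hk⟩ := S.isPGroup' ⟨s, hs⟩
    have h1 := r.mod (MulAut.conjNormal s) (fun u => by
      rw [mem, mem, MulAut.conjNormal_apply]
      exact ⟨fun h1 => by simpa [mul_assoc] using mul_mem (mul_mem (inv_mem hs) h1) hs,
        fun h1 => mul_mem (mul_mem hs h1) (inv_mem hs)⟩) (k := k) (by
      rw [← map_pow, show s ^ p ^ k = 1 from congrArg Subtype.val hk, map_one])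
    have h2 := mul_mem ((mem _).1 h1) hs
    rw [coe_mul, coe_inv, MulAut.conjNormal_apply] at h2
    convert SetLike.mem_coe.2 h2 using 1
    group
  have hf := r.fix (MulAut.conjNormal z) (fun u hu => Subtype.ext (by
    rw [MulAut.conjNormal_apply, ← hc _ (le_normalizer ((mem u).1 hu)), mul_inv_cancel_right]))
    (Subtype.ext (by rw [MulAut.conjNormal_apply, ← hc _ hh, mul_inv_cancel_right]))
  have hZ : (⊤ : Subgroup X) ≤ centralizer {z} := by
    rw [← hN]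
    refine sup_le (fun x hx => mem_centralizer_singleton_iff.2 ?_) fun x hx =>
      mem_centralizer_singleton_iff.2 (hc x (le_normalizer hx))
    have := congrArg Subtype.val (hf ⟨x, hx⟩)
    rw [MulAut.conjNormal_apply, mul_inv_eq_iff_eq_mul] at this
    exact this.symm
  have : (zpowers z).Normal := ⟨fun n hn g => by
    obtain ⟨k, rfl⟩ := hn
    have h1 : Commute g z := mem_centralizer_singleton_iff.1 (hZ (mem_top g))
    rw [(h1.zpow_right k).eq, mul_inv_cancel_right]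
    exact ⟨k, rfl⟩⟩
  have h1 : zpowers z ≤ pCore p X :=
    Core.le_pCore inferInstance (S.isPGroup'.to_le (zpowers_le.2 hz))
  exact mem_bot.1 (hO ▸ h1 (mem_zpowers z))

end Cfsg.Lib.IPM
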