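import Cfsg.Agent.Lib.IPM.A
import Cfsg.Agent.Lib.U3.Model
import Cfsg.Agent.Lib.PSL2.SL

/-!
Rank one data for `SL₂(q)` and `SU₃(q)` in characteristic at least five.
-/

set_option autoImplicit false

namespace Cfsg.Lib.IPM

open Subgroup Cfsg.Lib.Unitary Cfsg.Lib.PSL2 Matrix
open scoped MatrixGroups

variable {F : Type*} [Field F] {p : ℕ} [hp : Fact p.Prime]

theorem two_facts [CharP F p] (h5 : 5 ≤ p) :
    (2 : F) ≠ 0 ∧ (2 : F) ^ (p - 1) = 1 ∧ (3 : F) ≠ 0 := by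
  have h : ∀ n : ℕ, 0 < n → n < 5 → (n : F) ≠ 0 := fun n h0 h1 h2 =>
    absurd (Nat.le_of_dvd h0 ((CharP.cast_eq_zero_iff F p n).1 h2)) (by omega)
  have h2 : (2 : F) ≠ 0 := by exact_mod_cast h 2 (by omega) (by omega)
  refine ⟨h2, mul_right_cancel₀ h2 ?_, by exact_mod_cast h 3 (by omega) (by omega)⟩
  rw [← pow_succ, Nat.sub_add_cancel (by omega), one_mul]
  exact map_ofNat (frobenius F p) 2

theorem unit_gen [Finite F] [CharP F p] :
    ∃ g : Fˣ, (orderOf g).Coprime p ∧ ∀ a : Fˣ, ∃ k : ℕ, a = g ^ k := by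
  obtain ⟨g, hg⟩ := IsCyclic.exists_monoid_generator (α := Fˣ)
  exact ⟨g, coprime_orderOf_units p (isOfFinOrder_of_finite g), fun a => by
    obtain ⟨k, hk⟩ := hg a; exact ⟨k, hk.symm⟩⟩

theorem hasRK_model {σ : F →+* F} {a : ℕ} {G : Type*} [Group G] (M : U3.Model σ (p ^ a) G)
    (h5 : 5 ≤ p) : HasRK p G := by
  have := M.bar.finite
  have : Fact (Function.Involutive σ) := ⟨M.bar.invol⟩
  have := Fintype.ofFinite F
  have : CharP F p := charP_of_card_eq_prime_pow (f := a * 2) (by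
    rw [pow_mul, ← M.bar.card, Nat.card_eq_fintype_card])
  obtain ⟨h2, e2, h3⟩ := two_facts (F := F) h5
  obtain ⟨g, gp, hg⟩ := unit_gen (F := F) (p := p)
  have s2 : σ 2 = 2 := map_ofNat σ 2
  have reg : ∀ u ∈ M.U, M.w⁻¹ * u * M.w ∈ M.B → u = 1 := fun v hv h => by_contra fun h1 =>
    M.pt_ne_inf U3.Hs.zero (M.eq_inf_of_mem_U hv h1 (by
      rwa [M.mem_B, M.w_inv, mul_smul, mul_smul, M.w_smul_inf, smul_eq_iff_eq_inv_smul, M.w_inv,
        M.w_smul_inf] at h))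
  obtain ⟨x, hx⟩ := U3.exists_hs M.bar 1
  refine ⟨M.B, M.U, M.w, M.hHom (Units.mk0 2 h2), M.hHom g,
    IsPGroup.of_card (n := a * 3) (by rw [M.card_U, pow_mul]), M.U_le_B,
    fun b hb u hu => M.conj_mem_U hb hu, fun y hy => ?_, reg, M.T_le_B ⟨_, rfl⟩,
    gp.coprime_dvd_left (orderOf_map_dvd _ _), fun b hb => ?_, M.T_le_B ⟨_, rfl⟩, ?_, ?_, ?_, ?_,
    _, M.u_mem_U hx, fun h => one_ne_zero ((M.u_eq_one hx).1 h)⟩
  · obtain ⟨c, hc, v, hv, e⟩ := M.canon (g := y⁻¹) fun h => hy (inv_mem_iff.1 h)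
    exact ⟨_, inv_mem hv, _, inv_mem hc, by rw [← inv_inv y, e]; simp [M.w_inv, mul_assoc]⟩
  · obtain ⟨x, y, a, h, ha, rfl⟩ := M.mem_B'.1 hb
    obtain ⟨k, hk⟩ := hg (Units.mk0 a ha)
    exact ⟨k, _, M.u_mem_U h, by rw [← map_pow, ← hk]; rfl⟩
  · rw [M.w_inv, M.hHom_apply, Units.val_mk0, M.w_mul_h h2, mul_assoc, M.w_mul_w, mul_one]
    exact M.T_le_B (M.h_mem_T (by rw [s2]; exact inv_ne_zero h2))
  · rw [← map_pow, show Units.mk0 2 h2 ^ (p - 1) = 1 from Units.ext (by simpa using e2), map_one]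
  · intro u hu h
    obtain ⟨x, y, hxy, rfl⟩ := M.mem_U.1 hu
    rw [M.hHom_apply, Units.val_mk0, M.h_mul_u h2 hxy, mul_left_inj, M.u_inj (hxy.tor h2) hxy,
      s2] at h
    exact (M.u_eq_one hxy).2 ((mul_eq_zero.1 (show 3 * y = 0 by linear_combination h.2)).resolve_left h3)
  · have hu : ∀ x y, U3.Hs σ x y → M.u x y ∈ normalClosure (M.U : Set G) := fun x y h =>
      subset_normalClosure (M.u_mem_U h)
    refine M.eq_top_of_u hu ?_
    have e := M.w_u_w hx one_ne_zero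
    have h1 := normalClosure_normal.conj_mem _ (hu _ _ hx) M.w
    rw [M.w_inv, e, M.h_one, mul_one] at h1
    exact (mul_mem_cancel_left (hu _ _ hx.weyl)).1 ((mul_mem_cancel_right (hu _ _ hx.weyl')).1 h1)

/-- A diagonal matrix of `SL₂`. -/
def dg0 (a : Fˣ) : SL(2, F) := ⟨!![(a : F), 0; 0, (a : F)⁻¹], by simp [det_fin_two]⟩

theorem coe_dg0 (a : Fˣ) : (dg0 a : Matrix (Fin 2) (Fin 2) F) = !![(a : F), 0; 0, (a : F)⁻¹] := rfl

/-- Diagonal matrices of `SL₂`. -/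
def dg : Fˣ →* SL(2, F) :=
  MonoidHom.mk' dg0 fun a b => by apply sl_ext <;> simp [coe_dg0, mul_comm]

theorem coe_dg (a : Fˣ) : (dg a : Matrix (Fin 2) (Fin 2) F) = !![(a : F), 0; 0, (a : F)⁻¹] := rfl

/-- Upper triangular matrices of `SL₂`. -/
def bor (F : Type*) [Field F] : Subgroup SL(2, F) where
  carrier := {s | s 1 0 = 0}
  mul_mem' {s t} hs ht := by
    simp only [Set.mem_ofPred_eq] at *
    simp [Matrix.mul_apply, Fin.sum_univ_two, hs, ht]
  one_mem' := by simp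
  inv_mem' {s} hs := by
    simp only [Set.mem_ofPred_eq] at *
    simp [SpecialLinearGroup.SL2_inv_expl, hs]

/-- Upper unitriangular matrices of `SL₂`. -/
def uni (F : Type*) [Field F] : Subgroup SL(2, F) :=
  (MonoidHom.mk' (fun b : Multiplicative F => upper b.toAdd) fun a b => (upper_mul _ _).symm).range

theorem mem_uni {s : SL(2, F)} : s ∈ uni F ↔ ∃ b, upper b = s := Iff.rfl

/-- The Weyl element of `SL₂`. -/
def wy (F : Type*) [Field F] : SL(2, F) := ⟨!![0, -1; 1, 0], by simp [det_fin_two]⟩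

theorem coe_wy : (wy F : Matrix (Fin 2) (Fin 2) F) = !![0, -1; 1, 0] := rfl

theorem hasRK_SL [Finite F] [CharP F p] (h5 : 5 ≤ p) : HasRK p SL(2, F) := by
  obtain ⟨h2, e2, h3⟩ := two_facts (F := F) h5
  obtain ⟨g, gp, hg⟩ := unit_gen (F := F) (p := p)
  have mB : ∀ s : SL(2, F), s ∈ bor F ↔ s 1 0 = 0 := fun _ => Iff.rfl
  have dB : ∀ a, dg a ∈ bor F := fun a => by simp [mB, coe_dg]
  have uU : ∀ b : F, upper b ∈ uni F := fun b => ⟨b, rfl⟩
  have dec : ∀ s ∈ bor F, ∃ a b, s = upper b * dg a := fun s hs => by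
    have hd := sl_det s
    rw [(mB s).1 hs, mul_zero, sub_zero] at hd
    have h0 := left_ne_zero_of_mul_eq_one hd
    refine ⟨Units.mk0 _ h0, s 0 1 * s 0 0, ?_⟩
    apply sl_ext <;> simp [coe_dg, Matrix.mul_apply, Fin.sum_univ_two, (mB s).1 hs, h0,
      eq_inv_of_mul_eq_one_right hd]
  have cj : ∀ (a : Fˣ) b, dg a * upper b = upper ((a : F) ^ 2 * b) * dg a := fun a b => by
    apply sl_ext <;> simp [coe_dg, Matrix.mul_apply, Fin.sum_univ_two, sq, mul_assoc, mul_comm]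
  have can : ∀ s, s ∉ bor F → ∃ v ∈ uni F, ∃ c ∈ bor F, s = v * wy F * c := fun s hs => by
    refine ⟨_, uU (s 0 0 / s 1 0), (upper (s 0 0 / s 1 0) * wy F)⁻¹ * s, ?_, by group⟩
    have h0 : s 1 0 ≠ 0 := hs
    simp [mB, coe_wy, adjugate_fin_two, Matrix.mul_apply, Fin.sum_univ_two, h0]
  have u1 : ∀ b : F, upper b = 1 ↔ b = 0 := fun b =>
    ⟨fun h => by simpa using congrArg (fun s : SL(2, F) => s 0 1) h, fun h => h ▸ upper_zero⟩
  refine ⟨bor F, uni F, wy F, dg (Units.mk0 2 h2), dg g, ?_, ?_, ?_, can, ?_, dB _,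
    gp.coprime_dvd_left (orderOf_map_dvd _ _), fun b hb => ?_, dB _, ?_, ?_, ?_, ?_,
    _, uU 1, fun h => one_ne_zero ((u1 1).1 h)⟩
  · rintro ⟨_, b, rfl⟩
    exact ⟨1, Subtype.ext (by simp [upper_pow, upper_zero])⟩
  · rintro _ ⟨b, rfl⟩
    simp [mB]
  · rintro s hs _ ⟨c, rfl⟩
    obtain ⟨a, b, rfl⟩ := dec s hs
    have : upper b * dg a * upper c.toAdd * (upper b * dg a)⁻¹ =
        upper b * upper ((a : F) ^ 2 * c.toAdd) * (upper b)⁻¹ := by
      rw [mul_assoc (upper b), cj]; group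
    exact this ▸ mul_mem (mul_mem (uU _) (uU _)) (inv_mem (uU _))
  · rintro _ ⟨c, rfl⟩ h
    exact (u1 _).2 (by
      simpa [mB, coe_wy, adjugate_fin_two, Matrix.mul_apply, Fin.sum_univ_two] using h)
  · obtain ⟨a, c, rfl⟩ := dec b hb
    obtain ⟨k, rfl⟩ := hg a
    exact ⟨k, _, uU c, by rw [map_pow]⟩
  · simp [mB, coe_wy, coe_dg, adjugate_fin_two, Matrix.mul_apply, Fin.sum_univ_two]
  · rw [← map_pow, show Units.mk0 2 h2 ^ (p - 1) = 1 from Units.ext (by simpa using e2), map_one]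
  · rintro _ ⟨c, rfl⟩ h
    have h1 := congrArg (fun s : SL(2, F) => s 0 1) (mul_right_cancel ((cj _ _).symm.trans h))
    simp only [coe_upper, Units.val_mk0, MonoidHom.mk'_apply, of_apply, cons_val', cons_val_one,
      cons_val_zero, cons_val_fin_one] at h1
    exact (u1 _).2 ((mul_eq_zero.1 (show 3 * c.toAdd = 0 by linear_combination h1)).resolve_left h3)
  · set N := normalClosure ((uni F : Subgroup SL(2, F)) : Set SL(2, F))
    have hu : ∀ b, upper b ∈ N := fun b => subset_normalClosure (uU b)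
    have hw : ∀ a : Fˣ, wy F * dg a ∈ N := fun a => by
      have : wy F * dg a = upper (-((a⁻¹ : Fˣ) : F)) * (wy F * upper (-(a : F)) * (wy F)⁻¹) *
          upper (-((a⁻¹ : Fˣ) : F)) := by
        apply sl_ext <;>
          simp [coe_wy, coe_dg, adjugate_fin_two, Matrix.mul_apply, Fin.sum_univ_two]
      exact this ▸ mul_mem (mul_mem (hu _) (normalClosure_normal.conj_mem _ (hu _) _)) (hu _)
    have hw1 : wy F ∈ N := by simpa using hw 1
    have hB : bor F ≤ N := fun s hs => by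
      obtain ⟨a, b, rfl⟩ := dec s hs
      exact mul_mem (hu b) ((mul_mem_cancel_left hw1).1 (hw a))
    refine eq_top_iff.2 fun s _ => by_contra fun h => ?_
    obtain ⟨v, ⟨b, rfl⟩, c, hc, rfl⟩ := can s fun hs => h (hB hs)
    exact h (mul_mem (mul_mem (hu _) hw1) (hB hc))

end Cfsg.Lib.IPM
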